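import Cfsg.Agent.SwapSquareJ.Main

/-!
# Transfer to a normal subgroup of index two, and the conclusion
-/

set_option autoImplicit false
set_option linter.style.haveILetI false
set_option linter.unusedSectionVars false

namespace CfsgLib.SwapSquareJ

open Matrix

namespace Setup

variable {G : Type*} [Group G] {F : Type*} [Field F] {L₁ L₂ : Subgroup G} {j n : G}
variable [Finite G] [Finite F]
variable (S : Setup F L₁ L₂ j n)
include S

/-- A 2-subgroup of the centralizer commuting with an element outside the product of square `≠ j` is small. -/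
theorem card_small {y : G} (hy : y ∈ Subgroup.centralizer ({j} : Set G)) (hyH : y ∉ L₁ ⊔ L₂) (hy2 : y * y ≠ j)
    {R : Subgroup G} (hR : IsPGroup 2 R) (hRC : R ≤ Subgroup.centralizer ({j} : Set G))
    (hRy : ∀ r ∈ R, r * y = y * r) (P : Sylow 2 (SpecialLinearGroup (Fin 2) F)) :
    Nat.card R ≤ Nat.card (P : Subgroup (SpecialLinearGroup (Fin 2) F)) := by
  obtain ⟨u, hu, v, hv, rfl⟩ := S.out hy hyH
  set C := Subgroup.centralizer ({j} : Set G) with hC
  have hc : u⁻¹ ∈ C := C.inv_mem (S.le1 hu)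
  have hconj : u⁻¹ * (u * v * n) * u⁻¹⁻¹ = v * (n * u * n⁻¹) * n := by group
  have hw : v * (n * u * n⁻¹) ∈ L₂ := L₂.mul_mem hv (S.phi1 hu)
  set φ := (MulAut.conj u⁻¹).toMonoidHom with hφ
  have h := S.card_small_normal hw (fun h => hy2 (by
      rw [← hconj] at h
      calc u * v * n * (u * v * n) = u * (u⁻¹ * (u * v * n) * u⁻¹⁻¹ * (u⁻¹ * (u * v * n) * u⁻¹⁻¹)) * u⁻¹ := by group
        _ = u * j * u⁻¹ := by rw [h]
        _ = j := by rw [S.j_comm (S.le1 hu), mul_inv_cancel_right]))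
    (hR.map φ) (by rintro _ ⟨r, hr, rfl⟩; exact C.mul_mem (C.mul_mem hc (hRC hr)) (C.inv_mem hc))
    (by
      rintro _ ⟨r, hr, rfl⟩
      show u⁻¹ * r * u⁻¹⁻¹ * _ = _ * (u⁻¹ * r * u⁻¹⁻¹)
      rw [← hconj]
      calc u⁻¹ * r * u⁻¹⁻¹ * (u⁻¹ * (u * v * n) * u⁻¹⁻¹) = u⁻¹ * (r * (u * v * n)) * u⁻¹⁻¹ := by group
        _ = u⁻¹ * (u * v * n * r) * u⁻¹⁻¹ := by rw [hRy r hr]
        _ = _ := by group) P
  rwa [Subgroup.card_map_of_injective (MulAut.conj u⁻¹).injective] at h

theorem exists_index_two : ∃ N : Subgroup G, N.Normal ∧ N.index = 2 ∧ n ∉ N := by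
  classical
  haveI := Fact.mk Nat.prime_two
  set C := Subgroup.centralizer ({j} : Set G) with hC
  set H' := (L₁ ⊔ L₂).subgroupOf C with hH'
  haveI : H'.Normal := Subgroup.normal_of_index_eq_two S.idx
  have hcard : Nat.card (C ⧸ H') = 2 := S.idx
  haveI : IsCyclic (C ⧸ H') := isCyclic_of_prime_card hcard
  let _ : CommGroup (C ⧸ H') := IsCyclic.commGroup
  obtain ⟨a, ha1, hau⟩ := (Nat.card_eq_two_iff' (1 : C ⧸ H')).mp hcard
  have haa : a * a = 1 := by
    by_contra h
    exact ha1 (mul_eq_left.mp (hau _ h))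
  set ψ := QuotientGroup.mk' H' with hψ
  have hψ1 : ∀ x : C, ψ x = 1 ↔ (x : G) ∈ L₁ ⊔ L₂ := fun x =>
    (QuotientGroup.eq_one_iff x).trans Subgroup.mem_subgroupOf
  let τ : G →* C ⧸ H' := MonoidHom.transfer ψ
  let Q : G → Prop := fun g => g⁻¹ * n * g ∈ C ∧ g⁻¹ * n * g ∉ L₁ ⊔ L₂
  have hQc : ∀ g c : G, c ∈ C → (Q (g * c) ↔ Q g) := by
    have key : ∀ g c : G, c ∈ C → Q g → Q (g * c) := by
      rintro g c hc ⟨h1, h2⟩
      have e : (g * c)⁻¹ * n * (g * c) = c⁻¹ * (g⁻¹ * n * g) * c⁻¹⁻¹ := by group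
      refine ⟨?_, fun h => h2 ?_⟩
      · rw [e]; exact C.mul_mem (C.mul_mem (C.inv_mem hc) h1) (C.inv_mem (C.inv_mem hc))
      · have := S.conj_mem hc h
        rwa [show c * ((g * c)⁻¹ * n * (g * c)) * c⁻¹ = g⁻¹ * n * g by group] at this
    exact fun g c hc => ⟨fun h => by simpa using key _ _ (C.inv_mem hc) h, key g c hc⟩
  have hQout : ∀ g : G, Q ((g : G ⧸ C).out) ↔ Q g := by
    intro g
    obtain ⟨c, hc⟩ := QuotientGroup.mk_out_eq_mul C g
    rw [hc]
    exact hQc g c c.2
  let Fx := {q : G ⧸ C // Q q.out}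
  have hfix : ∀ q : G ⧸ C, Q q.out → n • q = q := by
    intro q hq
    conv_rhs => rw [← QuotientGroup.out_eq' q]
    conv_lhs => rw [← QuotientGroup.out_eq' q]
    show ((n * q.out : G) : G ⧸ C) = _
    rw [QuotientGroup.eq]
    have := C.inv_mem hq.1
    simpa [mul_assoc] using this
  haveI : Fintype (Quotient (MulAction.orbitRel (Subgroup.zpowers n) (G ⧸ C))) := Fintype.ofFinite _
  have hn4 : n ^ 4 = 1 := by rw [show 4 = 2 * 2 from rfl, pow_mul, S.n_sq, pow_two, S.jj]
  have hval : τ n = a ^ Nat.card Fx := by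
    have h1 : τ n = ∏ q : Quotient (MulAction.orbitRel (Subgroup.zpowers n) (G ⧸ C)),
        (if Q q.out.out then a else 1) := by
      show MonoidHom.transfer ψ n = _
      rw [MonoidHom.transfer_eq_prod_quotient_orbitRel_zpowers_quot]
      refine Finset.prod_congr rfl fun q _ => ?_
      set m := Function.minimalPeriod (n • ·) q.out with hm
      have hmem := QuotientGroup.out_conj_pow_minimalPeriod_mem C n q.out
      have hper : Function.IsPeriodicPt (n • ·) 4 q.out := by
        show (n • ·)^[4] q.out = q.out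
        rw [smul_iterate_apply, hn4, one_smul]
      have hdvd : m ∣ 4 := hper.minimalPeriod_dvd
      by_cases hq : Q q.out.out
      · rw [if_pos hq]
        have hm1 : m = 1 := Function.minimalPeriod_eq_one_iff_isFixedPt.2 (hfix _ hq)
        refine hau _ fun h => hq.2 ?_
        have h' := (hψ1 _).1 h
        simp only [← hm, hm1, pow_one] at h'
        exact h'
      · rw [if_neg hq, hψ1]
        show q.out.out⁻¹ * n ^ m * q.out.out ∈ L₁ ⊔ L₂
        rw [← hm] at hmem
        rcases (show m = 1 ∨ m = 2 ∨ m = 4 by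
          have h4 := Nat.le_of_dvd (by norm_num) hdvd
          interval_cases m <;> omega) with e | e | e <;> rw [e] at hmem ⊢
        · rw [pow_one] at hmem ⊢
          by_contra hc
          exact hq ⟨hmem, hc⟩
        · refine S.invol_mem hmem ?_
          rw [show q.out.out⁻¹ * n ^ 2 * q.out.out * (q.out.out⁻¹ * n ^ 2 * q.out.out) =
            q.out.out⁻¹ * (n ^ 2 * n ^ 2) * q.out.out by group, S.n_sq, S.jj]
          group
        · rw [hn4, mul_one, inv_mul_cancel]
          exact one_mem _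
    rw [h1, Finset.prod_ite, Finset.prod_const, Finset.prod_const_one, mul_one]
    congr 1
    rw [← Fintype.card_subtype, ← Nat.card_eq_fintype_card]
    refine Nat.card_eq_of_bijective (fun q => (⟨q.1.out, q.2⟩ : Fx)) ⟨?_, ?_⟩
    · intro p q h
      exact Subtype.ext (Quotient.out_injective (congrArg Subtype.val h))
    · rintro ⟨x, hx⟩
      set q : Quotient (MulAction.orbitRel (Subgroup.zpowers n) (G ⧸ C)) := Quotient.mk'' x with hq
      have hmem : q.out ∈ MulAction.orbit (Subgroup.zpowers n) x := by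
        have : Quotient.mk'' q.out = (Quotient.mk'' x : Quotient (MulAction.orbitRel (Subgroup.zpowers n) (G ⧸ C))) := by
          rw [Quotient.out_eq']
        exact Quotient.eq''.1 this
      obtain ⟨⟨g, hg⟩, hgx⟩ := hmem
      have hgx' : q.out = x := by
        rw [← hgx]
        show g • x = x
        have : Subgroup.zpowers n ≤ MulAction.stabilizer G x := Subgroup.zpowers_le.2 (hfix x hx)
        exact this hg
      exact ⟨⟨q, by rw [hgx']; exact hx⟩, Subtype.ext hgx'⟩
  -- parity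
  obtain ⟨P⟩ : Nonempty (Sylow 2 (SpecialLinearGroup (Fin 2) F)) := inferInstance
  obtain ⟨T, hT, hTn, hTC, hTcard⟩ := S.exists_large P
  have hQT : ∀ t ∈ T, ∀ g : G, Q g → Q (t * g) := by
    intro t ht g hg
    have e : (t * g)⁻¹ * n * (t * g) = g⁻¹ * n * g := by
      calc (t * g)⁻¹ * n * (t * g) = g⁻¹ * (t⁻¹ * (n * t)) * g := by group
        _ = g⁻¹ * (t⁻¹ * (t * n)) * g := by rw [hTn t ht]
        _ = _ := by group
    show (t * g)⁻¹ * n * (t * g) ∈ C ∧ _
    rw [e]; exact hg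
  letI act : MulAction T Fx :=
    { smul := fun t q => ⟨(t : G) • q.1, by
        have h := (hQout ((t : G) * q.1.out)).2 (hQT t t.2 _ q.2)
        have e : (((t : G) * q.1.out : G) : G ⧸ C) = (t : G) • q.1 := by
          conv_rhs => rw [← QuotientGroup.out_eq' q.1]
          rfl
        rwa [e] at h⟩
      one_smul := fun q => Subtype.ext (one_smul G q.1)
      mul_smul := fun s t q => Subtype.ext (mul_smul (s : G) (t : G) q.1) }
  have hbase : Q (((1 : G) : G ⧸ C).out) := (hQout 1).2 (by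
    show (1 : G)⁻¹ * n * 1 ∈ C ∧ (1 : G)⁻¹ * n * 1 ∉ L₁ ⊔ L₂
    rw [inv_one, one_mul, mul_one]
    exact ⟨S.n_mem, S.n_not⟩)
  have hone : Nat.card (MulAction.fixedPoints T Fx) = 1 := by
    rw [Nat.card_eq_one_iff_exists]
    refine ⟨⟨⟨((1 : G) : G ⧸ C), hbase⟩, fun t => Subtype.ext ?_⟩, ?_⟩
    · show (((t : G) * 1 : G) : G ⧸ C) = ((1 : G) : G ⧸ C)
      rw [QuotientGroup.eq]
      simpa using C.inv_mem (hTC t.2)
    · rintro ⟨⟨x, hx⟩, hfx⟩
      refine Subtype.ext (Subtype.ext ?_)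
      show x = ((1 : G) : G ⧸ C)
      set g := x.out with hg
      have hgC : ∀ t ∈ T, g⁻¹ * t * g ∈ C := by
        intro t ht
        have h : t • x = x := congrArg Subtype.val (hfx ⟨t, ht⟩)
        rw [← QuotientGroup.out_eq' x, ← hg] at h
        have h' : g⁻¹ * (t * g) ∈ C := QuotientGroup.eq.1 h.symm
        rwa [← mul_assoc] at h'
      obtain ⟨hy1, hy2⟩ := hx
      by_cases hsq : (g⁻¹ * n * g) * (g⁻¹ * n * g) = j
      · have hgc : g ∈ C := by
          rw [show g⁻¹ * n * g * (g⁻¹ * n * g) = g⁻¹ * (n * n) * g by group, S.nn] at hsq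
          rw [hC, Subgroup.mem_centralizer_singleton_iff]
          calc g * j = g * (g⁻¹ * j * g) := by rw [hsq]
            _ = j * g := by group
        rw [← QuotientGroup.out_eq' x, ← hg, QuotientGroup.eq]
        simpa using C.inv_mem hgc
      · exfalso
        have h := S.card_small hy1 hy2 hsq (R := T.map (MulAut.conj g⁻¹).toMonoidHom) (hT.map _)
          (by rintro _ ⟨t, ht, rfl⟩; show g⁻¹ * t * g⁻¹⁻¹ ∈ C; rw [inv_inv]; exact hgC t ht)
          (by
            rintro _ ⟨t, ht, rfl⟩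
            show g⁻¹ * t * g⁻¹⁻¹ * _ = _ * (g⁻¹ * t * g⁻¹⁻¹)
            calc g⁻¹ * t * g⁻¹⁻¹ * (g⁻¹ * n * g) = g⁻¹ * (t * n) * g := by group
              _ = g⁻¹ * (n * t) * g := by rw [hTn t ht]
              _ = _ := by group) P
        rw [Subgroup.card_map_of_injective (MulAut.conj g⁻¹).injective] at h
        omega
  have hodd : Odd (Nat.card Fx) := by
    have hmod := hT.card_modEq_card_fixedPoints Fx
    rw [hone] at hmod
    exact Nat.odd_iff.2 hmod
  have hta : τ n = a := by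
    obtain ⟨i, hi⟩ := hodd
    rw [hval, hi, pow_succ, pow_mul, pow_two, haa, one_pow, one_mul]
  refine ⟨τ.ker, MonoidHom.normal_ker τ, ?_, fun h => ha1 (hta.symm.trans h)⟩
  rw [Subgroup.index_ker]
  have hsurj : τ.range = ⊤ := by
    rw [eq_top_iff]
    intro x _
    by_cases hx : x = 1
    · exact hx ▸ one_mem _
    · exact ⟨n, hta.trans (hau x hx).symm⟩
  rw [hsurj, Subgroup.card_top, hcard]

theorem le_of_index_two {N : Subgroup G} (hN : N.Normal) (h2 : N.index = 2) : L₁ ⊔ L₂ ≤ N := by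
  have hA : ∀ a : G ⧸ N, a * a = 1 := by
    intro a
    have := pow_card_eq_one' (x := a)
    rwa [← Subgroup.index_eq_card, h2, pow_two] at this
  have h1 : L₁ ≤ N := by
    intro x hx
    have h := hom_trivial S.h2 (((QuotientGroup.mk' N).comp L₁.subtype).comp S.e.symm.toMonoidHom) hA (S.e ⟨x, hx⟩)
    rw [← QuotientGroup.eq_one_iff]
    simpa using h
  refine sup_le h1 fun x hx => ?_
  have h := hN.conj_mem _ (h1 (S.phi2 hx)) n
  rwa [S.phi_phi (S.le2 hx)] at h

theorem isolated : Cfsg.IsIsolatedInvolution j := by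
  classical
  haveI := Fact.mk Nat.prime_two
  refine ⟨S.ord, ?_⟩
  have key : ∀ g : G, Commute j (g * j * g⁻¹) → g * j * g⁻¹ = j := by
    obtain ⟨N, hN, hidx, hnN⟩ := S.exists_index_two
    have hLN := S.le_of_index_two hN hidx
    intro g₀ hc
    obtain ⟨g, hgN, hg⟩ : ∃ g ∈ N, g * j * g⁻¹ = g₀ * j * g₀⁻¹ := by
      by_cases h : g₀ ∈ N
      · exact ⟨g₀, h, rfl⟩
      · exact ⟨g₀ * n, (Subgroup.mul_mem_iff_of_index_two hidx).2 ⟨fun h' => absurd h' h, fun h' => absurd h' hnN⟩, by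
          rw [show g₀ * n * j * (g₀ * n)⁻¹ = g₀ * (n * j * n⁻¹) * g₀⁻¹ by group, S.phi_j]⟩
    rw [← hg] at hc ⊢
    by_contra hne
    set t := g * j * g⁻¹ with ht
    have ht2 : t * t = 1 := by
      rw [ht, show g * j * g⁻¹ * (g * j * g⁻¹) = g * (j * j) * g⁻¹ by group, S.jj]; group
    have ht1 : t ≠ 1 := fun e => S.j_ne (by
      rw [ht] at e
      exact conj_eq_one_iff.1 e)
    have htC : t ∈ Subgroup.centralizer ({j} : Set G) := Subgroup.mem_centralizer_singleton_iff.2 hc.symm.eq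
    obtain ⟨u, hu, v, hv, huv⟩ := S.decomp (S.invol_mem htC ht2)
    have hu2v2 : (u * u) * (v * v) = 1 := by
      rw [← ht2, huv]
      calc u * u * (v * v) = u * (u * v) * v := by group
        _ = u * (v * u) * v := by rw [S.comm u hu v hv]
        _ = _ := by group
    have huu : u * u ∈ L₂ := by
      rw [eq_inv_of_mul_eq_one_left hu2v2]; exact L₂.inv_mem (L₂.mul_mem hv hv)
    have hu2 : u * u = j := by
      refine (S.mem_inter (L₁.mul_mem hu hu) huu).resolve_left fun e => ?_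
      have hv2 : v * v = 1 := by rwa [e, one_mul] at hu2v2
      rcases S.invol1 hu e with e1 | e1 <;> rcases S.invol2 hv hv2 with e2 | e2 <;> rw [huv, e1, e2] at hne ht1
      · exact ht1 (one_mul _)
      · exact hne (one_mul _)
      · exact hne (mul_one _)
      · exact ht1 S.jj
    -- an element of maximal 2-power order
    obtain ⟨α, ⟨hα, hα2⟩, hmax⟩ := Set.exists_max_image {x : G | x ∈ L₁ ∧ ∃ k, orderOf x = 2 ^ k} orderOf
      (Set.toFinite _) ⟨1, L₁.one_mem, 0, by rw [orderOf_one, pow_zero]⟩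
    obtain ⟨E, hE⟩ := hα2
    have hu4 : orderOf u = 2 ^ 2 := by
      refine orderOf_eq_prime_pow ?_ ?_
      · rw [pow_one, pow_two, hu2]; exact S.j_ne
      · rw [show (2 : ℕ) ^ (1 + 1) = 2 * 2 from rfl, pow_mul, pow_two u, hu2, pow_two, S.jj]
    have hE2 : 2 ≤ E := by
      have := hmax u ⟨hu, 2, hu4⟩
      rw [hu4, hE] at this
      exact (Nat.pow_le_pow_iff_right (by norm_num)).1 this
    set α₀ := α ^ 2 ^ (E - 2) with hα₀
    have hα₀2 : α₀ * α₀ = j := by
      refine ((S.invol1 (L₁.mul_mem (L₁.pow_mem hα _) (L₁.pow_mem hα _)) ?_).resolve_left fun e => ?_)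
      · rw [← pow_add, ← pow_add, show 2 ^ (E - 2) + 2 ^ (E - 2) + (2 ^ (E - 2) + 2 ^ (E - 2)) = 2 ^ E by
          rw [show E = E - 2 + 2 by omega, pow_add]; simp; ring, ← hE, pow_orderOf_eq_one]
      · rw [← pow_add] at e
        have hd := Nat.le_of_dvd (Nat.add_pos_left (pow_pos two_pos _) _) (orderOf_dvd_of_pow_eq_one e)
        rw [hE] at hd
        have h4 : 2 ^ E = 2 ^ (E - 2) * 4 := by
          conv_lhs => rw [show E = E - 2 + 2 by omega, pow_add]
          norm_num
        have : 0 < 2 ^ (E - 2) := pow_pos two_pos _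
        omega
    have hsl : ∀ {x : G} (hx : x ∈ L₁), x * x = j → S.e ⟨x, hx⟩ * S.e ⟨x, hx⟩ = -1 := fun {x} hx h => by
      rw [← map_mul, ← S.e_j]; congr 1; exact Subtype.ext h
    obtain ⟨c, hc'⟩ := isConj_iff.1 (isConj_sq_neg_one S.h2
      (hsl (L₁.pow_mem hα (2 ^ (E - 2))) hα₀2) (hsl hu hu2))
    set x : G := ((S.e.symm c : L₁) : G) with hx
    have hxu : x * α₀ * x⁻¹ = u := by
      have h := congrArg S.e.symm hc'
      rw [map_mul, map_mul, map_inv, MulEquiv.symm_apply_apply, MulEquiv.symm_apply_apply] at h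
      exact congrArg Subtype.val h
    set y := x * α * x⁻¹ with hy
    have hy1 : y ∈ L₁ := L₁.mul_mem (L₁.mul_mem (S.e.symm c).2 hα) (L₁.inv_mem (S.e.symm c).2)
    have hyt : y * t = t * y := by
      have h0 : Commute y u := by
        rw [hy, ← hxu, hα₀]
        exact ((Commute.refl α).pow_right _).map (MulAut.conj x).toMonoidHom
      rw [huv]
      exact ((show Commute y u from h0).mul_right (show Commute y v from S.comm y hy1 v hv)).eq
    set z := g⁻¹ * y * g with hz
    have hzC : z ∈ Subgroup.centralizer ({j} : Set G) := by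
      rw [Subgroup.mem_centralizer_singleton_iff, hz]
      calc g⁻¹ * y * g * j = g⁻¹ * (y * t) * g := by rw [ht]; group
        _ = g⁻¹ * (t * y) * g := by rw [hyt]
        _ = _ := by rw [ht]; group
    have hzH : z ∈ L₁ ⊔ L₂ := by
      by_contra hzH
      obtain ⟨a, ha, b, hb, hab⟩ := S.out hzC hzH
      have hzN : z ∈ N := N.mul_mem (N.mul_mem (N.inv_mem hgN) (hLN (Subgroup.mem_sup_left hy1))) hgN
      rw [hab] at hzN
      exact hnN ((N.mul_mem_cancel_left (hLN (Subgroup.mul_mem _ (Subgroup.mem_sup_left ha)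
        (Subgroup.mem_sup_right hb)))).1 hzN)
    obtain ⟨p, hp, q, hq, hpq⟩ := S.decomp hzH
    have hyE : y ^ 2 ^ E = 1 := by
      rw [hy, conj_pow, ← hE, pow_orderOf_eq_one, mul_one, mul_inv_cancel]
    have hzE : z ^ 2 ^ E = 1 := by
      rw [hz, show g⁻¹ * y * g = g⁻¹ * y * g⁻¹⁻¹ by group, conj_pow, hyE]; group
    have hcpq : Commute p q := S.comm p hp q hq
    rw [hpq, hcpq.mul_pow] at hzE
    have hpE : p ^ 2 ^ E = 1 := by
      have hpm : p ^ 2 ^ E ∈ L₂ := by
        rw [eq_inv_of_mul_eq_one_left hzE]; exact L₂.inv_mem (L₂.pow_mem hq _)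
      refine (S.mem_inter (L₁.pow_mem hp _) hpm).resolve_right fun e => ?_
      have ho : orderOf p = 2 ^ (E + 1) :=
        orderOf_eq_prime_pow (by rw [e]; exact S.j_ne) (by rw [pow_succ, pow_mul, e, pow_two, S.jj])
      have := hmax p ⟨hp, E + 1, ho⟩
      rw [ho, hE] at this
      exact absurd ((Nat.pow_le_pow_iff_right (by norm_num)).1 this) (by omega)
    have hqE : q ^ 2 ^ E = 1 := by rwa [hpE, one_mul] at hzE
    have hsplit : 2 ^ E = 2 ^ (E - 1) * 2 := by rw [← pow_succ, show E - 1 + 1 = E by omega]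
    rw [hsplit, pow_mul, pow_two] at hpE hqE
    have hyj : y ^ 2 ^ (E - 1) = j := by
      rw [hy, conj_pow, show 2 ^ (E - 1) = 2 ^ (E - 2) * 2 by rw [← pow_succ]; congr 1; omega, pow_mul,
        pow_two, hα₀2, S.j_comm (S.le1 (S.e.symm c).2), mul_inv_cancel_right]
    have hzj : z ^ 2 ^ (E - 1) = g⁻¹ * j * g := by
      rw [hz, show g⁻¹ * y * g = g⁻¹ * y * g⁻¹⁻¹ by group, conj_pow, hyj]; group
    rw [hpq, hcpq.mul_pow] at hzj
    refine hne ?_
    have : g⁻¹ * j * g = j := by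
      refine ((?_ : g⁻¹ * j * g = 1 ∨ g⁻¹ * j * g = j)).resolve_left fun e => S.j_ne (by
        calc j = g * (g⁻¹ * j * g) * g⁻¹ := by group
          _ = 1 := by rw [e]; group)
      rw [← hzj]
      rcases S.invol1 (L₁.pow_mem hp _) hpE with e1 | e1 <;> rcases S.invol2 (L₂.pow_mem hq _) hqE with e2 | e2 <;>
        rw [e1, e2]
      · exact Or.inl (one_mul _)
      · exact Or.inr (one_mul _)
      · exact Or.inr (mul_one _)
      · exact Or.inl S.jj
    calc t = g * j * g⁻¹ := ht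
      _ = g * (g⁻¹ * j * g) * g⁻¹ := by rw [this]
      _ = j := by group
  exact fun g hg => key g hg

theorem centralizer_sup_core :
    Subgroup.centralizer ({j} : Set G) ⊔ Cfsg.pPrimeCore 2 G = ⊤ := by
  rw [eq_top_iff]
  intro g _
  have h := (Cfsg.pPrimeCore 2 G).inv_mem (CfsgLib.ZStar.zstar S.isolated g)
  have hinv : j⁻¹ = j := inv_eq_of_mul_eq_one_right S.jj
  rw [show (j * g * j⁻¹ * g⁻¹)⁻¹ = g * j * g⁻¹ * j⁻¹ by group, hinv] at h
  obtain ⟨-, -, -, -, hc⟩ := CfsgLib.Isolated.rep_spec S.isolated g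
  have e : g = CfsgLib.Isolated.rep j g * ((CfsgLib.Isolated.rep j g)⁻¹ * g) := by group
  rw [e]
  exact Subgroup.mul_mem _ (Subgroup.mem_sup_right (CfsgLib.Isolated.rep_mem h)) (Subgroup.mem_sup_left hc)

end Setup

end CfsgLib.SwapSquareJ
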