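import Cfsg.Agent.SwapSquareJ.SL

/-!
# Two commuting `SL₂(q)` swapped by an element squaring to the common involution
-/

set_option autoImplicit false
set_option linter.style.haveILetI false
set_option linter.unusedSectionVars false

namespace CfsgLib.SwapSquareJ

open Matrix

/-- The data. -/
structure Setup {G : Type*} [Group G] (F : Type*) [Field F] (L₁ L₂ : Subgroup G) (j n : G) where
  e : ↥L₁ ≃* SpecialLinearGroup (Fin 2) F
  h2 : (2 : F) ≠ 0
  comm : ∀ x ∈ L₁, ∀ y ∈ L₂, x * y = y * x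
  ord : orderOf j = 2
  inter : L₁ ⊓ L₂ = Subgroup.zpowers j
  le_cent : L₁ ⊔ L₂ ≤ Subgroup.centralizer ({j} : Set G)
  idx : (L₁ ⊔ L₂).relIndex (Subgroup.centralizer ({j} : Set G)) = 2
  n_mem : n ∈ Subgroup.centralizer ({j} : Set G)
  n_sq : n ^ 2 = j
  swap : L₁.map (MulAut.conj n).toMonoidHom = L₂

namespace Setup

variable {G : Type*} [Group G] {F : Type*} [Field F] {L₁ L₂ : Subgroup G} {j n : G}
variable (S : Setup F L₁ L₂ j n)
include S

theorem jj : j * j = 1 := by rw [← pow_two, ← S.ord, pow_orderOf_eq_one]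

theorem j_ne : j ≠ 1 := fun h => by
  have := S.ord
  rw [h, orderOf_one] at this; omega

theorem j1 : j ∈ L₁ := (S.inter ▸ Subgroup.mem_zpowers j : j ∈ L₁ ⊓ L₂).1

theorem j2 : j ∈ L₂ := (S.inter ▸ Subgroup.mem_zpowers j : j ∈ L₁ ⊓ L₂).2

theorem nn : n * n = j := by rw [← pow_two, S.n_sq]

theorem e_j : S.e ⟨j, S.j1⟩ = -1 := by
  refine (sl_invol S.h2 ?_).resolve_left fun h => S.j_ne ?_
  · rw [← map_mul, ← map_one S.e]
    congr 1
    exact Subtype.ext S.jj
  · exact congrArg Subtype.val (S.e.injective (h.trans (map_one S.e).symm))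

theorem invol1 {x : G} (hx : x ∈ L₁) (h : x * x = 1) : x = 1 ∨ x = j := by
  rcases sl_invol S.h2 (x := S.e ⟨x, hx⟩) (by
    rw [← map_mul, ← map_one S.e]
    congr 1
    exact Subtype.ext h) with h' | h'
  · exact Or.inl (congrArg Subtype.val (S.e.injective (h'.trans (map_one S.e).symm)))
  · exact Or.inr (congrArg Subtype.val (S.e.injective (h'.trans S.e_j.symm)))

theorem mem_inter {x : G} (h1 : x ∈ L₁) (h2 : x ∈ L₂) : x = 1 ∨ x = j := by
  obtain ⟨k, rfl⟩ : x ∈ Subgroup.zpowers j := S.inter ▸ (⟨h1, h2⟩ : x ∈ L₁ ⊓ L₂)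
  show j ^ k = 1 ∨ j ^ k = j
  rw [← zpow_mod_orderOf, S.ord]
  rcases Int.emod_two_eq k with e | e
  · left; norm_num [e]
  · right; norm_num [e]

theorem j_comm {x : G} (hx : x ∈ Subgroup.centralizer ({j} : Set G)) : x * j = j * x :=
  Subgroup.mem_centralizer_singleton_iff.1 hx

theorem le1 : L₁ ≤ Subgroup.centralizer ({j} : Set G) := le_sup_left.trans S.le_cent

theorem le2 : L₂ ≤ Subgroup.centralizer ({j} : Set G) := le_sup_right.trans S.le_cent

theorem phi1 {x : G} (hx : x ∈ L₁) : n * x * n⁻¹ ∈ L₂ := S.swap ▸ ⟨x, hx, rfl⟩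

theorem phi_phi {x : G} (hx : x ∈ Subgroup.centralizer ({j} : Set G)) : n * (n * x * n⁻¹) * n⁻¹ = x := by
  calc n * (n * x * n⁻¹) * n⁻¹ = (n * n) * x * (n * n)⁻¹ := by group
    _ = x := by rw [S.nn, ← S.j_comm hx, mul_inv_cancel_right]

theorem phi2 {x : G} (hx : x ∈ L₂) : n * x * n⁻¹ ∈ L₁ := by
  have h : x ∈ L₁.map (MulAut.conj n).toMonoidHom := S.swap ▸ hx
  obtain ⟨y, hy, rfl⟩ := h
  show n * (n * y * n⁻¹) * n⁻¹ ∈ L₁
  rwa [S.phi_phi (S.le1 hy)]

theorem phi_j : n * j * n⁻¹ = j := by rw [S.j_comm S.n_mem, mul_inv_cancel_right]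

theorem invol2 {x : G} (hx : x ∈ L₂) (h : x * x = 1) : x = 1 ∨ x = j := by
  rcases S.invol1 (S.phi2 hx) (by
    rw [show n * x * n⁻¹ * (n * x * n⁻¹) = n * (x * x) * n⁻¹ by group, h]; group) with e | e
  · left; rw [← S.phi_phi (S.le2 hx), e]; group
  · right; rw [← S.phi_phi (S.le2 hx), e, S.phi_j]

theorem decomp {x : G} (hx : x ∈ L₁ ⊔ L₂) : ∃ u ∈ L₁, ∃ v ∈ L₂, x = u * v := by
  have hn : L₁ ≤ Subgroup.normalizer (L₂ : Set G) := fun a ha => by
    rw [Subgroup.mem_normalizer_iff]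
    intro y
    constructor
    · intro hy; rw [S.comm a ha y hy, mul_inv_cancel_right]; exact hy
    · intro hy
      have h := S.comm a ha _ hy
      have e' : a * y * a⁻¹ = y :=
        calc a * y * a⁻¹ = a⁻¹ * (a * (a * y * a⁻¹)) := by group
          _ = a⁻¹ * ((a * y * a⁻¹) * a) := by rw [h]
          _ = y := by group
      rwa [e'] at hy
  rw [← SetLike.mem_coe, Subgroup.coe_mul_of_left_le_normalizer_right L₁ L₂ hn] at hx
  obtain ⟨a, ha, b, hb, rfl⟩ := hx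
  exact ⟨a, ha, b, hb, rfl⟩

theorem n_not : n ∉ L₁ ⊔ L₂ := by
  intro hn
  obtain ⟨u, hu, v, hv, huv⟩ := S.decomp hn
  have hle : ∀ x ∈ L₁, x = 1 ∨ x = j := by
    intro x hx
    refine S.mem_inter hx ?_
    have h1 : n * (u⁻¹ * x * u) * n⁻¹ ∈ L₂ := S.phi1 (L₁.mul_mem (L₁.mul_mem (L₁.inv_mem hu) hx) hu)
    rwa [huv, show u * v * (u⁻¹ * x * u) * (u * v)⁻¹ = u * (v * (u⁻¹ * x * u)) * v⁻¹ * u⁻¹ by group,
      ← S.comm _ (L₁.mul_mem (L₁.mul_mem (L₁.inv_mem hu) hx) hu) v hv,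
      show u * (u⁻¹ * x * u * v) * v⁻¹ * u⁻¹ = x by group] at h1
  obtain ⟨⟨x, hx⟩, hxe⟩ := S.e.surjective (CfsgLib.SL2.compT 0)
  have hne : (-1 : SpecialLinearGroup (Fin 2) F) ≠ 1 := CfsgLib.SL2.neg_one_ne_one S.h2
  have hsq := compT_zero_sq (F := F)
  rw [← hxe, ← map_mul] at hsq
  refine hne (hsq.symm.trans ?_)
  rw [← map_one S.e]
  congr 1
  refine Subtype.ext ?_
  show x * x = 1
  rcases hle x hx with e' | e' <;> rw [e']
  · exact one_mul 1
  · exact S.jj

theorem conj_mem {x h : G} (hx : x ∈ Subgroup.centralizer ({j} : Set G)) (hh : h ∈ L₁ ⊔ L₂) :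
    x * h * x⁻¹ ∈ L₁ ⊔ L₂ :=
  (Subgroup.normal_of_index_eq_two S.idx).conj_mem ⟨h, S.le_cent hh⟩ hh ⟨x, hx⟩

theorem out {x : G} (hx : x ∈ Subgroup.centralizer ({j} : Set G)) (h : x ∉ L₁ ⊔ L₂) :
    ∃ u ∈ L₁, ∃ v ∈ L₂, x = u * v * n := by
  set H' := (L₁ ⊔ L₂).subgroupOf (Subgroup.centralizer ({j} : Set G)) with hH'
  have key := Subgroup.mul_mem_iff_of_index_two (H := H') S.idx
    (a := (⟨x, hx⟩ : Subgroup.centralizer ({j} : Set G)))
    (b := (⟨n, S.n_mem⟩ : Subgroup.centralizer ({j} : Set G))⁻¹)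
  have hmem : x * n⁻¹ ∈ L₁ ⊔ L₂ :=
    key.2 ⟨fun h' => absurd h' h, fun h' => absurd ((inv_mem_iff).1 h') S.n_not⟩
  obtain ⟨u, hu, v, hv, huv⟩ := S.decomp hmem
  exact ⟨u, hu, v, hv, by rw [← huv, inv_mul_cancel_right]⟩

/-- The square of an element outside. -/
theorem sq_out {u v : G} (hu : u ∈ L₁) (hv : v ∈ L₂) :
    (u * v * n) * (u * v * n) = (u * (n * v * n⁻¹)) * (v * (n * u * n⁻¹)) * j := by
  have h1 := S.comm _ (S.phi2 hv) v hv
  have h2 := S.comm _ (S.phi2 hv) _ (S.phi1 hu)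
  calc (u * v * n) * (u * v * n) = u * v * ((n * u * n⁻¹) * (n * v * n⁻¹)) * (n * n) := by group
    _ = u * v * ((n * v * n⁻¹) * (n * u * n⁻¹)) * (n * n) := by rw [h2]
    _ = u * (v * (n * v * n⁻¹)) * (n * u * n⁻¹) * (n * n) := by group
    _ = u * ((n * v * n⁻¹) * v) * (n * u * n⁻¹) * (n * n) := by rw [h1]
    _ = (u * (n * v * n⁻¹)) * (v * (n * u * n⁻¹)) * j := by rw [S.nn]; group

/-- No involution of the centralizer lies outside the product. -/
theorem invol_mem {x : G} (hx : x ∈ Subgroup.centralizer ({j} : Set G)) (h2 : x * x = 1) : x ∈ L₁ ⊔ L₂ := by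
  by_contra h
  obtain ⟨u, hu, v, hv, rfl⟩ := S.out hx h
  rw [S.sq_out hu hv] at h2
  set A := u * (n * v * n⁻¹) with hA
  set B := v * (n * u * n⁻¹) with hB
  have hA1 : A ∈ L₁ := L₁.mul_mem hu (S.phi2 hv)
  have hB2 : B ∈ L₂ := L₂.mul_mem hv (S.phi1 hu)
  have hA2 : A ∈ L₂ := by
    rw [show A = j⁻¹ * B⁻¹ from (eq_inv_of_mul_eq_one_left (by rw [← mul_assoc]; exact h2)).trans (mul_inv_rev _ _)]
    exact L₂.mul_mem (L₂.inv_mem S.j2) (L₂.inv_mem hB2)
  have hBA : v⁻¹ * B * v = n * A * n⁻¹ := by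
    rw [hA, hB, show n * (u * (n * v * n⁻¹)) * n⁻¹ = (n * u * n⁻¹) * (n * (n * v * n⁻¹) * n⁻¹) by group,
      S.phi_phi (S.le2 hv)]
    group
  have hBA' : B = A := by
    rcases S.mem_inter hA1 hA2 with e | e
    · rw [e] at hBA ⊢
      calc B = v * (v⁻¹ * B * v) * v⁻¹ := by group
        _ = 1 := by rw [hBA]; group
    · rw [e] at hBA ⊢
      calc B = v * (v⁻¹ * B * v) * v⁻¹ := by group
        _ = v * j * v⁻¹ := by rw [hBA, S.phi_j]
        _ = j := by rw [S.j_comm (S.le2 hv), mul_inv_cancel_right]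
  rw [hBA'] at h2
  refine S.j_ne ?_
  rcases S.mem_inter hA1 hA2 with e | e <;> rw [e] at h2
  · simpa using h2
  · rwa [S.jj, one_mul] at h2

/-- The diagonal map. -/
def diag : ↥L₂ →* G where
  toFun q := n * q * n⁻¹ * q
  map_one' := by simp
  map_mul' a b := by
    have h := S.comm _ (S.phi2 b.2) a a.2
    calc n * ((a : G) * b) * n⁻¹ * ((a : G) * b) = n * a * n⁻¹ * ((n * b * n⁻¹) * a) * b := by group
      _ = n * a * n⁻¹ * (a * (n * b * n⁻¹)) * b := by rw [h]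
      _ = n * a * n⁻¹ * a * (n * b * n⁻¹ * b) := by group

theorem diag_apply (q : ↥L₂) : S.diag q = n * q * n⁻¹ * q := rfl

theorem diag_ker {q : ↥L₂} (h : S.diag q = 1) : (q : G) = 1 ∨ (q : G) = j := by
  rw [diag_apply] at h
  refine S.mem_inter ?_ q.2
  rw [← inv_eq_of_mul_eq_one_right h]
  exact L₁.inv_mem (S.phi2 q.2)

theorem diag_comm_n (q : ↥L₂) : n * S.diag q * n⁻¹ = S.diag q := by
  rw [diag_apply, show n * (n * (q : G) * n⁻¹ * q) * n⁻¹ = n * (n * q * n⁻¹) * n⁻¹ * (n * q * n⁻¹) by group,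
    S.phi_phi (S.le2 q.2), S.comm _ (S.phi2 q.2) q q.2]

variable [Finite G]

omit S in
theorem two_mul_card_le {A B : Subgroup G} (hlt : A < B) : 2 * Nat.card A ≤ Nat.card B := by
  obtain ⟨k, hk⟩ := Subgroup.card_dvd_of_le hlt.le
  have h0 : Nat.card A < Nat.card B :=
    lt_of_le_of_ne (Subgroup.card_le_of_le hlt.le) fun e => hlt.ne (Subgroup.eq_of_le_of_card_ge hlt.le e.ge)
  have hk2 : 2 ≤ k := by
    by_contra hc
    interval_cases k <;> omega
  rw [hk, mul_comm 2]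
  exact Nat.mul_le_mul_left _ hk2

omit S [Finite G] in
theorem isPGroup_zpowers_two {x : G} {i : ℕ} (hx : x ^ 2 ^ i = 1) : IsPGroup 2 (Subgroup.zpowers x) := by
  haveI := Fact.mk Nat.prime_two
  obtain ⟨k, -, hk⟩ := (Nat.dvd_prime_pow Nat.prime_two).1 (orderOf_dvd_of_pow_eq_one hx)
  exact IsPGroup.of_card (n := k) (by rw [Nat.card_zpowers, hk])

omit S [Finite G] in
theorem le_normalizer_of_comm {A : Subgroup G} {x : G} (h : ∀ a ∈ A, a * x = x * a) :
    Subgroup.zpowers x ≤ Subgroup.normalizer (A : Set G) := by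
  rw [Subgroup.zpowers_le, Subgroup.mem_normalizer_iff]
  intro y
  constructor
  · intro hy; rw [← h y hy, mul_inv_cancel_right]; exact hy
  · intro hy
    have h' := h _ hy
    rw [show x * y * x⁻¹ * x = x * y by group] at h'
    rwa [← mul_left_cancel h'] at hy

/-- A large 2-subgroup centralizing `n`. -/
theorem exists_large [Finite F] (P : Sylow 2 (SpecialLinearGroup (Fin 2) F)) :
    ∃ T : Subgroup G, IsPGroup 2 T ∧ (∀ t ∈ T, t * n = n * t) ∧ T ≤ Subgroup.centralizer ({j} : Set G) ∧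
      Nat.card (P : Subgroup (SpecialLinearGroup (Fin 2) F)) < Nat.card T := by
  classical
  haveI := Fact.mk Nat.prime_two
  let ψ : SpecialLinearGroup (Fin 2) F →* ↥L₂ :=
    { toFun := fun x => ⟨n * (S.e.symm x : G) * n⁻¹, S.phi1 (S.e.symm x).2⟩
      map_one' := Subtype.ext (by simp)
      map_mul' := fun x y => Subtype.ext (by
        show n * ((S.e.symm (x * y) : L₁) : G) * n⁻¹ = _
        rw [map_mul, Subgroup.coe_mul]
        show _ = n * (S.e.symm x : G) * n⁻¹ * (n * (S.e.symm y : G) * n⁻¹)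
        group) }
  have hψ : Function.Injective ψ := fun x y h => by
    refine S.e.symm.injective (Subtype.ext ?_)
    exact (MulAut.conj n).injective (congrArg Subtype.val h)
  set f := S.diag.comp ψ with hf
  set T₀ := (P : Subgroup (SpecialLinearGroup (Fin 2) F)).map f with hT₀
  have hT₀p : IsPGroup 2 T₀ := P.2.map f
  have hT₀H : T₀ ≤ L₁ ⊔ L₂ := by
    rintro _ ⟨x, -, rfl⟩
    exact Subgroup.mul_mem _ (Subgroup.mem_sup_left (S.phi2 (ψ x).2)) (Subgroup.mem_sup_right (ψ x).2)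
  have hP : Nat.card (P : Subgroup (SpecialLinearGroup (Fin 2) F)) ≤ 2 * Nat.card T₀ := by
    let g := f.comp (P : Subgroup (SpecialLinearGroup (Fin 2) F)).subtype
    have hrange : g.range = T₀ := by rw [hT₀, MonoidHom.range_comp, Subgroup.range_subtype]
    have hker : Nat.card g.ker ≤ 2 := by
      let to2 : g.ker → Bool := fun x => if ((ψ x.1.1 : L₂) : G) = 1 then true else false
      have hinj : Function.Injective to2 := by
        intro x y hxy
        refine Subtype.ext (Subtype.ext (hψ (Subtype.ext ?_)))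
        simp only [to2] at hxy
        rcases S.diag_ker (q := ψ x.1.1) x.2 with ex | ex <;> rcases S.diag_ker (q := ψ y.1.1) y.2 with ey | ey
        · rw [ex, ey]
        · simp [ex, ey, S.j_ne] at hxy
        · simp [ex, ey, S.j_ne] at hxy
        · rw [ex, ey]
      simpa using Nat.card_le_card_of_injective to2 hinj
    calc Nat.card (P : Subgroup (SpecialLinearGroup (Fin 2) F)) = Nat.card g.range * Nat.card g.ker := by
          rw [← Subgroup.index_ker, mul_comm, Subgroup.card_mul_index]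
      _ ≤ Nat.card g.range * 2 := Nat.mul_le_mul_left _ hker
      _ = _ := by rw [hrange, mul_comm]
  have hT₀n : ∀ t ∈ T₀, t * n = n * t := by
    rintro _ ⟨x, -, rfl⟩
    exact (mul_inv_eq_iff_eq_mul.1 (S.diag_comm_n (ψ x))).symm
  set T₁ := Subgroup.zpowers j ⊔ T₀ with hT₁
  have hnj : IsPGroup 2 (Subgroup.zpowers j) := isPGroup_zpowers_two (i := 1) (by rw [pow_one, pow_two, S.jj])
  have hT₁p : IsPGroup 2 T₁ := IsPGroup.to_sup_of_normal_right' hnj hT₀p
    (le_normalizer_of_comm fun a ha => S.j_comm (S.le_cent (hT₀H ha)))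
  have hT₁H : T₁ ≤ L₁ ⊔ L₂ := sup_le (Subgroup.zpowers_le.2 (Subgroup.mem_sup_left S.j1)) hT₀H
  have hjn : j * n = n * j := (S.j_comm S.n_mem).symm
  have hcen : T₁ ≤ Subgroup.centralizer ({n} : Set G) := sup_le
    (Subgroup.zpowers_le.2 (Subgroup.mem_centralizer_singleton_iff.2 hjn))
    fun t ht => Subgroup.mem_centralizer_singleton_iff.2 (hT₀n t ht)
  have hlt0 : T₀ < T₁ := by
    refine lt_of_le_of_ne le_sup_right fun e => ?_
    have hj : j ∈ T₀ := e ▸ Subgroup.mem_sup_left (Subgroup.mem_zpowers j)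
    obtain ⟨x, -, hx⟩ := hj
    set q := ψ x
    have hx' : n * (q : G) * n⁻¹ * q = j := hx
    have hq : n * (q : G) * n⁻¹ ∈ L₂ := by
      rw [eq_mul_inv_of_mul_eq hx']; exact L₂.mul_mem S.j2 (L₂.inv_mem q.2)
    have hq2 := S.phi_phi (S.le2 q.2)
    rcases S.mem_inter (S.phi2 q.2) hq with ee | ee
    · rw [ee, mul_one, mul_inv_cancel] at hq2
      rw [ee, ← hq2, one_mul] at hx'
      exact S.j_ne hx'.symm
    · rw [ee, S.phi_j] at hq2
      rw [ee, ← hq2, S.jj] at hx'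
      exact S.j_ne hx'.symm
  set T := Subgroup.zpowers n ⊔ T₁ with hT
  have hnp : IsPGroup 2 (Subgroup.zpowers n) := isPGroup_zpowers_two (i := 2) (by
    rw [show (2 : ℕ) ^ 2 = 2 * 2 from rfl, pow_mul, S.n_sq, pow_two, S.jj])
  have hlt1 : T₁ < T := lt_of_le_of_ne le_sup_right fun e =>
    S.n_not (hT₁H (e ▸ Subgroup.mem_sup_left (Subgroup.mem_zpowers n)))
  refine ⟨T, IsPGroup.to_sup_of_normal_right' hnp hT₁p
    (le_normalizer_of_comm fun a ha => Subgroup.mem_centralizer_singleton_iff.1 (hcen ha)), ?_,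
    sup_le (Subgroup.zpowers_le.2 S.n_mem) (hT₁H.trans S.le_cent), ?_⟩
  · intro t ht
    have : T ≤ Subgroup.centralizer ({n} : Set G) :=
      sup_le (Subgroup.zpowers_le.2 (Subgroup.mem_centralizer_singleton_iff.2 rfl)) hcen
    exact Subgroup.mem_centralizer_singleton_iff.1 (this ht)
  · have := two_mul_card_le hlt0
    have := two_mul_card_le hlt1
    have : 0 < Nat.card T₀ := Nat.card_pos
    omega

end Setup

end CfsgLib.SwapSquareJ
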