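import Cfsg.Agent.SwapSquareJ.Basic
import Cfsg.Agent.ZStar.Main
import Cfsg.Agent.Invol.Dihedral

/-!
# The involution of a swapped pair is central modulo the odd core
-/

set_option autoImplicit false
set_option linter.style.haveILetI false
set_option linter.unusedSectionVars false

namespace CfsgLib.SwapSquareJ

open Matrix

namespace Setup

variable {G : Type*} [Group G] {F : Type*} [Field F] {L₁ L₂ : Subgroup G} {j n : G}
variable [Finite G] [Finite F]
variable (S : Setup F L₁ L₂ j n)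
include S

/-- A 2-subgroup centralizing `(1, w) n` is small. -/
theorem card_small_normal {w : G} (hw : w ∈ L₂) (hwj : w * n * (w * n) ≠ j) {R : Subgroup G} (hR : IsPGroup 2 R)
    (hRC : R ≤ Subgroup.centralizer ({j} : Set G)) (hRy : ∀ r ∈ R, r * (w * n) = w * n * r)
    (P : Sylow 2 (SpecialLinearGroup (Fin 2) F)) :
    Nat.card R ≤ Nat.card (P : Subgroup (SpecialLinearGroup (Fin 2) F)) := by
  classical
  haveI := Fact.mk Nat.prime_two
  set C := Subgroup.centralizer ({j} : Set G) with hC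
  set R' := Subgroup.zpowers j ⊔ R with hR'
  have hR'p : IsPGroup 2 R' := IsPGroup.to_sup_of_normal_right'
    (isPGroup_zpowers_two (i := 1) (by rw [pow_one, pow_two, S.jj])) hR
    (le_normalizer_of_comm fun a ha => S.j_comm (hRC ha))
  have hR'C : R' ≤ C := sup_le (Subgroup.zpowers_le.2 (Subgroup.mem_centralizer_singleton_iff.2 rfl)) hRC
  have hjR : j ∈ R' := Subgroup.mem_sup_left (Subgroup.mem_zpowers j)
  have hR'y : ∀ r ∈ R', r * (w * n) = w * n * r := by
    intro r hr
    have : R' ≤ Subgroup.centralizer ({w * n} : Set G) := sup_le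
      (Subgroup.zpowers_le.2 (Subgroup.mem_centralizer_singleton_iff.2
        (S.j_comm (C.mul_mem (S.le2 hw) S.n_mem)).symm))
      fun r hr => Subgroup.mem_centralizer_singleton_iff.2 (hRy r hr)
    exact Subgroup.mem_centralizer_singleton_iff.1 (this hr)
  set K : Subgroup ↥L₂ := (Subgroup.centralizer ({w} : Set G)).subgroupOf L₂ ⊓ R'.comap S.diag with hK
  -- elements of the product centralizing `w n`
  have hshape : ∀ h ∈ R', h ∈ L₁ ⊔ L₂ → ∃ q : K, h = S.diag q.1 ∨ h = j * S.diag q.1 := by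
    intro h hh hH
    obtain ⟨p, hp, q, hq, rfl⟩ := S.decomp hH
    have hy := hR'y _ hh
    have hfq := S.phi2 hq
    have hfp := S.phi1 hp
    have e1 : p * (q * w) = (n * q * n⁻¹) * (w * (n * p * n⁻¹)) := by
      calc p * (q * w) = p * q * (w * n) * n⁻¹ := by group
        _ = w * n * (p * q) * n⁻¹ := by rw [hy]
        _ = w * ((n * p * n⁻¹) * (n * q * n⁻¹)) := by group
        _ = w * ((n * q * n⁻¹) * (n * p * n⁻¹)) := by rw [S.comm _ hfq _ hfp]
        _ = (w * (n * q * n⁻¹)) * (n * p * n⁻¹) := by group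
        _ = ((n * q * n⁻¹) * w) * (n * p * n⁻¹) := by rw [S.comm _ hfq w hw]
        _ = _ := by group
    set ε := (n * q * n⁻¹)⁻¹ * p with hε
    have hε1 : ε ∈ L₁ := L₁.mul_mem (L₁.inv_mem hfq) hp
    have hε' : ε = w * (n * p * n⁻¹) * (q * w)⁻¹ := by
      calc ε = (n * q * n⁻¹)⁻¹ * (p * (q * w)) * (q * w)⁻¹ := by rw [hε]; group
        _ = _ := by rw [e1]; group
    have hε2 : ε ∈ L₂ := by
      rw [hε']; exact L₂.mul_mem (L₂.mul_mem hw hfp) (L₂.inv_mem (L₂.mul_mem hq hw))
    have hp' : p = n * q * n⁻¹ * ε := by rw [hε]; group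
    have hnp : n * p * n⁻¹ = q * ε := by
      rw [hp', show n * (n * q * n⁻¹ * ε) * n⁻¹ = n * (n * q * n⁻¹) * n⁻¹ * (n * ε * n⁻¹) by group,
        S.phi_phi (S.le2 hq)]
      rcases S.mem_inter hε1 hε2 with e | e <;> rw [e]
      · group
      · rw [S.phi_j]
    have hqw : w * q = q * w := by
      rcases S.mem_inter hε1 hε2 with e | e
      · rw [hnp, e, mul_one] at hε'
        exact mul_inv_eq_one.1 hε'.symm
      · rw [hnp, e] at hε'
        rw [show w * (q * j) = w * q * j by group,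
          S.j_comm (C.mul_mem (S.le2 hw) (S.le2 hq)), mul_assoc] at hε'
        exact mul_inv_eq_one.1 (mul_eq_left.1 hε'.symm)
    have hdiag : S.diag ⟨q, hq⟩ ∈ R' := by
      rw [diag_apply]
      show n * q * n⁻¹ * q ∈ R'
      rcases S.mem_inter hε1 hε2 with e | e
      · rwa [hp', e, mul_one] at hh
      · rw [hp', e, S.j_comm (S.le1 hfq), mul_assoc] at hh
        simpa using R'.mul_mem (R'.inv_mem hjR) hh
    refine ⟨⟨⟨q, hq⟩, Subgroup.mem_centralizer_singleton_iff.2 hqw.symm, hdiag⟩, ?_⟩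
    rw [diag_apply]
    rcases S.mem_inter hε1 hε2 with e | e
    · left
      show p * q = n * q * n⁻¹ * q
      rw [hp', e, mul_one]
    · right
      show p * q = j * (n * q * n⁻¹ * q)
      rw [hp', e, S.j_comm (S.le1 hfq), mul_assoc]
  -- counting
  set X := K.map S.diag with hX
  have hcardH : Nat.card ↥(R' ⊓ (L₁ ⊔ L₂)) ≤ 2 * Nat.card X := by
    choose q hq using fun h : ↥(R' ⊓ (L₁ ⊔ L₂)) => hshape h h.2.1 h.2.2
    let f : ↥(R' ⊓ (L₁ ⊔ L₂)) → Bool × ↥X := fun h =>
      (if (h : G) = S.diag (q h).1 then true else false, ⟨S.diag (q h).1, ⟨(q h).1, (q h).2, rfl⟩⟩)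
    have hinj : Function.Injective f := by
      intro a b hab
      simp only [f, Prod.mk.injEq, Subtype.mk.injEq] at hab
      obtain ⟨hb, hd'⟩ := hab
      have hd : S.diag (q a).1 = S.diag (q b).1 := congrArg Subtype.val hd'
      by_cases ha : (a : G) = S.diag (q a).1
      · have hb' : (b : G) = S.diag (q b).1 := by
          by_contra hc; simp [ha, hc] at hb
        exact Subtype.ext (by rw [ha, hb', hd])
      · have hb' : ¬ (b : G) = S.diag (q b).1 := by
          intro hc; simp [ha, hc] at hb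
        exact Subtype.ext (by rw [(hq a).resolve_left ha, (hq b).resolve_left hb', hd])
    have := Nat.card_le_card_of_injective f hinj
    rwa [Nat.card_prod, Nat.card_eq_fintype_card (α := Bool), Fintype.card_bool] at this
  have hjK : (⟨j, S.j2⟩ : ↥L₂) ∈ K := by
    refine ⟨Subgroup.mem_centralizer_singleton_iff.2 (S.j_comm (S.le2 hw)).symm, ?_⟩
    show S.diag ⟨j, S.j2⟩ ∈ R'
    rw [diag_apply]
    show n * j * n⁻¹ * j ∈ R'
    rw [S.phi_j, S.jj]
    exact one_mem _
  have hKX : 2 * Nat.card X ≤ Nat.card K := by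
    let g := S.diag.comp K.subtype
    have hrange : g.range = X := by rw [hX, MonoidHom.range_comp, Subgroup.range_subtype]
    have hk : (⟨⟨j, S.j2⟩, hjK⟩ : K) ∈ g.ker := by
      show n * j * n⁻¹ * j = 1
      rw [S.phi_j, S.jj]
    have hne : g.ker ≠ ⊥ := fun e => by
      rw [e, Subgroup.mem_bot] at hk
      exact S.j_ne (congrArg (fun x : K => ((x : ↥L₂) : G)) hk)
    have h1 : 1 < Nat.card g.ker := (Subgroup.one_lt_card_iff_ne_bot _).2 hne
    calc 2 * Nat.card X ≤ Nat.card g.ker * Nat.card g.range := by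
          rw [hrange]; exact Nat.mul_le_mul_right _ h1
      _ = Nat.card K := by rw [← Subgroup.index_ker, Subgroup.card_mul_index]
  -- `K` transported to `SL₂`
  let ψ : ↥K →* SpecialLinearGroup (Fin 2) F :=
    { toFun := fun q => S.e ⟨n * ((q : ↥L₂) : G) * n⁻¹, S.phi2 (q : ↥L₂).2⟩
      map_one' := by rw [← map_one S.e]; congr 1; exact Subtype.ext (by simp)
      map_mul' := fun a b => by
        rw [← map_mul]
        congr 1
        refine Subtype.ext ?_
        show n * (((a : ↥L₂) : G) * (b : ↥L₂)) * n⁻¹ = n * (a : ↥L₂) * n⁻¹ * (n * (b : ↥L₂) * n⁻¹)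
        group }
  have hψ : Function.Injective ψ := fun a b h => by
    refine Subtype.ext (Subtype.ext ((MulAut.conj n).injective ?_))
    exact congrArg Subtype.val (S.e.injective h)
  have hKp : IsPGroup 2 K := by
    intro q
    obtain ⟨i, hi⟩ := hR'p ⟨S.diag q.1, q.2.2⟩
    refine ⟨i + 1, Subtype.ext (Subtype.ext ?_)⟩
    have hd : S.diag (q.1 ^ 2 ^ i) = 1 := by rw [map_pow]; exact congrArg Subtype.val hi
    rcases S.diag_ker hd with e | e <;> rw [Subgroup.coe_pow] at e <;>
      · show ((q : ↥L₂) : G) ^ 2 ^ (i + 1) = 1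
        rw [pow_succ, pow_mul, e, pow_two]
        first | exact one_mul _ | exact S.jj
  have hwc : S.e ⟨n * w * n⁻¹, S.phi2 hw⟩ ∉ Subgroup.center (SpecialLinearGroup (Fin 2) F) := by
    intro hc
    have hwc' : w = 1 ∨ w = j := by
      refine S.invol2 hw ?_
      have := (CfsgLib.SL2.isCentral_sq S.h2).2 hc
      rw [← map_mul, ← map_one S.e] at this
      have h' : n * w * n⁻¹ * (n * w * n⁻¹) = 1 := congrArg Subtype.val (S.e.injective this)
      refine (MulAut.conj n).injective ?_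
      show n * (w * w) * n⁻¹ = n * 1 * n⁻¹
      rw [← show n * w * n⁻¹ * (n * w * n⁻¹) = n * (w * w) * n⁻¹ by group, h']
      group
    refine hwj ?_
    rcases hwc' with e | e <;> rw [e]
    · rw [one_mul, S.nn]
    · calc j * n * (j * n) = (j * (n * j * n⁻¹)) * (n * n) := by group
        _ = j := by rw [S.phi_j, S.jj, one_mul, S.nn]
  have hKP := card_lt_sylow S.h2 hwc (K := ψ.range) (hKp.of_equiv (MonoidHom.ofInjective hψ)) (by
    rintro _ ⟨q, rfl⟩
    show S.e _ * S.e _ = S.e _ * S.e _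
    rw [← map_mul, ← map_mul]
    congr 1
    refine Subtype.ext ?_
    have hq : ((q : ↥L₂) : G) * w = w * (q : ↥L₂) := Subgroup.mem_centralizer_singleton_iff.1 q.2.1
    show n * (q : ↥L₂) * n⁻¹ * (n * w * n⁻¹) = n * w * n⁻¹ * (n * (q : ↥L₂) * n⁻¹)
    calc n * (q : ↥L₂) * n⁻¹ * (n * w * n⁻¹) = n * (((q : ↥L₂) : G) * w) * n⁻¹ := by group
      _ = _ := by rw [hq]; group) P
  rw [Nat.card_congr (MonoidHom.ofInjective hψ).symm.toEquiv] at hKP
  have hidx : Nat.card R' ≤ 2 * Nat.card ↥(R' ⊓ (L₁ ⊔ L₂)) := by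
    have h1 : (L₁ ⊔ L₂).relIndex R' ≤ 2 :=
      (Subgroup.relIndex_le_of_le_right hR'C (by rw [S.idx]; norm_num)).trans S.idx.le
    have h2 := ((L₁ ⊔ L₂).subgroupOf R').card_mul_index
    rw [show Nat.card ↥((L₁ ⊔ L₂).subgroupOf R') = Nat.card ↥(R' ⊓ (L₁ ⊔ L₂)) by
      rw [← Subgroup.card_map_of_injective R'.subtype_injective, Subgroup.subgroupOf_map_subtype, inf_comm]] at h2
    rw [← h2, mul_comm 2]
    exact Nat.mul_le_mul_left _ h1
  have hRR' : Nat.card R ≤ Nat.card R' := Subgroup.card_le_of_le le_sup_right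
  omega

end Setup

end CfsgLib.SwapSquareJ
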