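import Cfsg.Agent.SL2.PSL
import Cfsg.Agent.SL2.Involutions
import Cfsg.Agent.SLn.Basic

/-!
# `SL₂(q)`, `q` odd: the facts used for a swapped pair in an involution centralizer
-/

set_option autoImplicit false
set_option linter.unusedSectionVars false

namespace CfsgLib.SwapSquareJ

open Matrix CfsgLib.SL2

variable {F : Type*} [Field F]

theorem sl_invol (h2 : (2 : F) ≠ 0) {x : SpecialLinearGroup (Fin 2) F} (h : x * x = 1) : x = 1 ∨ x = -1 :=
  (CfsgLib.SL2.mem_center_iff _).mp ((isCentral_sq h2).mp h)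

theorem compT_zero_sq : (compT (0 : F)) * compT 0 = -1 := by
  apply ext2 <;> simp only [mul00, mul01, mul10, mul11] <;> simp [compT, mk2]

theorem isConj_sq_neg_one [Finite F] (h2 : (2 : F) ≠ 0) {a b : SpecialLinearGroup (Fin 2) F}
    (ha : a * a = -1) (hb : b * b = -1) : IsConj a b :=
  isConj_of_tr_eq' (tr_zero_sq_ne_four h2 (tr_eq_zero_of_sq ha))
    ((tr_eq_zero_of_sq ha).trans (tr_eq_zero_of_sq hb).symm)

/-- A Sylow 2-subgroup is not abelian. -/
theorem exists_not_comm [Finite F] (h2 : (2 : F) ≠ 0) :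
    ∃ R : Subgroup (SpecialLinearGroup (Fin 2) F), IsPGroup 2 R ∧ ∃ x ∈ R, ∃ y ∈ R, x * y ≠ y * x := by
  haveI := Fact.mk Nat.prime_two
  set i := compT (0 : F) with hi0
  have hi : i * i = -1 := compT_zero_sq
  obtain ⟨h, hh⟩ := exists_anticommute h2 (tr_eq_zero_of_sq hi)
  have hh' : i * h = -(h * i) := by rw [hh, neg_neg]
  have htr : tr h = 0 := tr_eq_zero_of_anticommute h2 hh'
  have hh2 : h * h = -1 := by
    apply Subtype.ext
    have e : h.1 * h.1 = tr h • h.1 - 1 := sq_eq h
    rw [htr, zero_smul, zero_sub] at e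
    simpa using e
  have hne : (-1 : SpecialLinearGroup (Fin 2) F) ≠ 1 := neg_one_ne_one h2
  have hpow : ∀ x : SpecialLinearGroup (Fin 2) F, x * x = -1 → IsPGroup 2 (Subgroup.zpowers x) := by
    intro x hx
    have h4 : x ^ 2 ^ 2 = 1 := by
      rw [show x ^ 2 ^ 2 = (x * x) * (x * x) by norm_num [pow_succ, mul_assoc], hx]; simp
    obtain ⟨k, -, hk⟩ := (Nat.dvd_prime_pow Nat.prime_two).1 (orderOf_dvd_of_pow_eq_one h4)
    exact IsPGroup.of_card (n := k) (by rw [Nat.card_zpowers, hk])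
  have hnorm : Subgroup.zpowers h ≤
      Subgroup.normalizer ((Subgroup.zpowers i : Subgroup (SpecialLinearGroup (Fin 2) F)) : Set _) := by
    rw [Subgroup.zpowers_le, Subgroup.mem_normalizer_iff_map_conj_eq, MonoidHom.map_zpowers]
    show Subgroup.zpowers (h * i * h⁻¹) = _
    have e : h * i * h⁻¹ = i⁻¹ := by
      have e1 : i⁻¹ = -i := inv_eq_of_mul_eq_one_right (by rw [mul_neg, hi, neg_neg])
      rw [e1, hh, neg_mul, mul_inv_cancel_right]
    rw [e, Subgroup.zpowers_inv]
  refine ⟨Subgroup.zpowers h ⊔ Subgroup.zpowers i,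
    IsPGroup.to_sup_of_normal_right' (hpow h hh2) (hpow i hi) hnorm, h,
    Subgroup.mem_sup_left (Subgroup.mem_zpowers h), i, Subgroup.mem_sup_right (Subgroup.mem_zpowers i),
    fun e => hne ?_⟩
  rw [hh] at e
  have h1 : i * h * (i * h)⁻¹ = -1 := by
    nth_rewrite 1 [← e]
    rw [neg_mul, mul_inv_cancel]
  rw [mul_inv_cancel] at h1
  exact h1.symm

/-- A 2-subgroup centralizing a non-central element is smaller than a Sylow 2-subgroup. -/
theorem card_lt_sylow [Finite F] (h2 : (2 : F) ≠ 0) {w : SpecialLinearGroup (Fin 2) F}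
    (hw : w ∉ Subgroup.center (SpecialLinearGroup (Fin 2) F)) {K : Subgroup (SpecialLinearGroup (Fin 2) F)}
    (hK : IsPGroup 2 K) (hKw : ∀ x ∈ K, x * w = w * x) (P : Sylow 2 (SpecialLinearGroup (Fin 2) F)) :
    2 * Nat.card K ≤ Nat.card (P : Subgroup (SpecialLinearGroup (Fin 2) F)) := by
  haveI := Fact.mk Nat.prime_two
  obtain ⟨S, hS⟩ := hK.exists_le_sylow
  have hlt : K < (S : Subgroup (SpecialLinearGroup (Fin 2) F)) := by
    refine lt_of_le_of_ne hS fun heq => ?_
    obtain ⟨R, hR, x, hx, y, hy, hxy⟩ := exists_not_comm (F := F) h2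
    obtain ⟨Q, hQ⟩ := hR.exists_le_sylow
    obtain ⟨c, hc⟩ := MulAction.exists_smul_eq (SpecialLinearGroup (Fin 2) F) Q S
    have hmem : ∀ r ∈ R, c * r * c⁻¹ ∈ K := fun r hr => by
      rw [heq, ← hc]; exact Subgroup.smul_mem_pointwise_smul _ (MulAut.conj c) _ (hQ hr)
    have h := centralizer_comm hw (hKw _ (hmem x hx)) (hKw _ (hmem y hy))
    refine hxy ((MulAut.conj c).injective ?_)
    show c * (x * y) * c⁻¹ = c * (y * x) * c⁻¹
    calc c * (x * y) * c⁻¹ = c * x * c⁻¹ * (c * y * c⁻¹) := by group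
      _ = c * y * c⁻¹ * (c * x * c⁻¹) := h
      _ = _ := by group
  rw [P.card_eq_multiplicity, ← S.card_eq_multiplicity]
  obtain ⟨k, hk⟩ := Subgroup.card_dvd_of_le hlt.le
  have h0 : Nat.card K < Nat.card (S : Subgroup (SpecialLinearGroup (Fin 2) F)) :=
    lt_of_le_of_ne (Subgroup.card_le_of_le hlt.le) fun e => hlt.ne (Subgroup.eq_of_le_of_card_ge hlt.le e.ge)
  have hk2 : 2 ≤ k := by
    by_contra hc
    interval_cases k <;> omega
  rw [hk, mul_comm 2]
  exact Nat.mul_le_mul_left _ hk2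

theorem transvection_add {i j : Fin 2} (hij : i ≠ j) (a b : F) :
    SpecialLinearGroup.transvection hij (a + b) =
      SpecialLinearGroup.transvection hij a * SpecialLinearGroup.transvection hij b := by
  apply Subtype.ext
  show _ = (SpecialLinearGroup.transvection hij a).1 * (SpecialLinearGroup.transvection hij b).1
  rw [SpecialLinearGroup.transvection_coe, SpecialLinearGroup.transvection_coe,
    SpecialLinearGroup.transvection_coe]
  rw [add_mul, one_mul, mul_add, mul_one, Matrix.single_mul_single_of_ne (h := hij.symm), add_zero,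
    Matrix.single_add, add_assoc, add_comm (Matrix.single i j b)]

/-- No nontrivial map to a group of exponent two. -/
theorem hom_trivial (h2 : (2 : F) ≠ 0) {A : Type*} [Group A] (f : SpecialLinearGroup (Fin 2) F →* A)
    (hA : ∀ a : A, a * a = 1) (x : SpecialLinearGroup (Fin 2) F) : f x = 1 := by
  have h : f.ker = ⊤ := CfsgLib.SLn.eq_top_of_transvection _ fun i j hij c => by
    rw [MonoidHom.mem_ker, show c = c / 2 + c / 2 by rw [← two_mul, mul_div_cancel₀ c h2], transvection_add,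
      map_mul, hA]
  exact MonoidHom.mem_ker.1 (h ▸ Subgroup.mem_top x)

end CfsgLib.SwapSquareJ
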